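import Cfsg.Agent.H109.Cov.Types
import Cfsg.Agent.H638.G2Iso
import Cfsg.Agent.S2121

/-!
# S3691-M3: the residual subgroups of `Sp_6(q)`, `q` even (helper96)

* `card_dvd_aut` : in characteristic two the order of a residual subgroup divides `|Aut T|`
* `aut_g2` : `|Aut G₂(q)|` divides `q ^ 6 (q ^ 2 - 1) (q ^ 6 - 1) f`
* `res_le` : `q = 2 ^ f ≥ 16`: the 2-part of a residual subgroup of `Sp_6(q)` is at most `2 ^ (6 f) f₂`
-/

set_option autoImplicit false

namespace Cfsg.Agent.H96.Rg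

open Cfsg Cfsg.Geo Module
open Cfsg.Agent.H753 (conjNormal_injective)
open Cfsg.Agent.H109.Cov (L06)
open scoped MatrixGroups Matrix

universe u

/-- **The order divides `|Aut T|`** (characteristic two). -/
theorem card_dvd_aut {F : Type u} [Field F] [Finite F] (h2 : (2 : F) = 0) {m : ℕ} (hm : 1 ≤ m)
    {H P : Subgroup (GL (Fin m ⊕ Fin m) F)} (hle : H ≤ spGL m F) (hc : IsResidualCore H P) :
    Nat.card H ∣ Nat.card (MulAut (P ⧸ (scalars (Fin m ⊕ Fin m) F).subgroupOf P)) := by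
  classical
  have hneg : (-1 : GL (Fin m ⊕ Fin m) F) = 1 := by
    apply Units.ext
    have h3 : (-1 : F) = 1 := by
      rw [neg_eq_iff_add_eq_zero, one_add_one_eq_two, h2]
    rw [Units.val_neg, Units.val_one]
    ext i j
    rw [Matrix.neg_apply, Matrix.one_apply]
    split_ifs
    · exact h3
    · exact neg_zero
  set Z : Subgroup H := (scalars (Fin m ⊕ Fin m) F).subgroupOf H with hZ
  have hZn : Z.Normal := inferInstance
  have hPn : (P.subgroupOf H).Normal := ⟨fun x hx g => hc.normal g g.2 x hx⟩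
  set T : Subgroup (H ⧸ Z) := (P.subgroupOf H).map (QuotientGroup.mk' Z) with hT
  have hTn : T.Normal := hPn.map _ (QuotientGroup.mk'_surjective Z)
  have hZ1 : Nat.card Z = 1 := by
    rw [Subgroup.card_eq_one, Subgroup.eq_bot_iff_forall]
    intro z hz
    rcases H914.S6.scalar_cases hm (hle z.2) hz with h | h
    · exact Subtype.ext h
    · exact Subtype.ext (h.trans hneg)
  have hcent : Subgroup.centralizer (T : Set (H ⧸ Z)) = ⊥ := by
    rw [eq_bot_iff]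
    intro g hg
    obtain ⟨h, rfl⟩ := QuotientGroup.mk_surjective g
    rw [Subgroup.mem_bot]
    apply (QuotientGroup.eq_one_iff _).2
    refine hc.centralizer_scalar h h.2 ?_
    intro x hx
    obtain ⟨x', hx'⟩ : ∃ x' : H, (x' : GL (Fin m ⊕ Fin m) F) = x := ⟨⟨x, hc.le hx⟩, rfl⟩
    have h1 := Subgroup.mem_centralizer_iff.1 hg (QuotientGroup.mk' Z x')
      ⟨x', by rw [SetLike.mem_coe, Subgroup.mem_subgroupOf, hx']; exact hx, rfl⟩
    have h2 : QuotientGroup.mk' Z (h * x' * h⁻¹ * x'⁻¹) = 1 := by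
      rw [map_mul, map_mul, map_mul, map_inv, map_inv]
      change (h : H ⧸ Z) * _ * (h : H ⧸ Z)⁻¹ * _ = 1
      rw [← h1]
      group
    rw [QuotientGroup.mk'_apply, QuotientGroup.eq_one_iff, hZ, Subgroup.mem_subgroupOf] at h2
    rw [← hx']
    simpa only [Subgroup.coe_mul, Subgroup.coe_inv] using h2
  obtain ⟨f, hfx⟩ : ∃ f : P →* T, ∀ x : P, (f x : H ⧸ Z) = QuotientGroup.mk' Z ⟨x, hc.le x.2⟩ :=
    ⟨{ toFun := fun x => ⟨QuotientGroup.mk' Z ⟨x, hc.le x.2⟩, ⟨⟨x, hc.le x.2⟩, x.2, rfl⟩⟩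
       map_one' := Subtype.ext rfl
       map_mul' := fun x y => Subtype.ext rfl }, fun x => rfl⟩
  have hf : Function.Surjective f := by
    rintro ⟨_, ⟨x, hx, rfl⟩⟩
    exact ⟨⟨x, hx⟩, Subtype.ext (hfx _)⟩
  have hker : f.ker = (scalars (Fin m ⊕ Fin m) F).subgroupOf P := by
    ext x
    rw [MonoidHom.mem_ker, Subgroup.mem_subgroupOf, ← Subtype.coe_inj, hfx, QuotientGroup.mk'_apply,
      Subgroup.coe_one, QuotientGroup.eq_one_iff, hZ, Subgroup.mem_subgroupOf]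
  have e : T ≃* P ⧸ (scalars (Fin m ⊕ Fin m) F).subgroupOf P :=
    (QuotientGroup.quotientKerEquivOfSurjective f hf).symm.trans (QuotientGroup.quotientMulEquivOfEq hker)
  have hfin : Finite (GL (Fin m ⊕ Fin m) F) := inferInstance
  have h1 : Nat.card (H ⧸ Z) ∣ Nat.card (MulAut T) :=
    Subgroup.card_dvd_of_injective _ (conjNormal_injective T hcent)
  rw [Nat.card_congr (MulAut.congr e).toEquiv] at h1
  rw [← Subgroup.card_mul_index Z, hZ1, one_mul]
  exact h1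

variable {F : Type u} [Field F] [Fintype F]

theorem charP_two {f : ℕ} (hF : Fintype.card F = 2 ^ f) : CharP F 2 := by
  obtain ⟨p, hp⟩ := CharP.exists F
  have hpp := CharP.char_is_prime F p
  obtain ⟨n, -, hn⟩ := FiniteField.card F p
  have h1 : p ∣ 2 ^ f := by rw [← hF, hn]; exact dvd_pow_self _ n.ne_zero
  have h2 := (Nat.prime_dvd_prime_iff_eq hpp Nat.prime_two).1 (hpp.dvd_of_dvd_pow h1)
  rwa [h2] at hp

/-- `|Aut G₂(q)|` -/
theorem aut_g2 {f : ℕ} (hf : 2 ≤ f) (hF : Fintype.card F = 2 ^ f) :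
    Nat.card (MulAut (Lie.G2 F)) ∣ (2 ^ f) ^ 6 * ((2 ^ f) ^ 2 - 1) * ((2 ^ f) ^ 6 - 1) * f := by
  have hch : CharP F 2 := charP_two hF
  have : Fact (Nat.Prime 2) := ⟨Nat.prime_two⟩
  have h4 : 2 ^ 2 ≤ 2 ^ f := Nat.pow_le_pow_right (by norm_num) hf
  obtain ⟨e⟩ := H638.G2Iso.equiv (F := F)
  rw [Nat.card_congr (MulAut.congr e).toEquiv]
  have h1 : Nat.card (MulAut (Lie.chevG2.group F)) ∣ Nat.card (Lie.chevG2.group F) * Nat.card (Out (Lie.chevG2.group F)) := by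
    rw [← Subgroup.card_mul_index (Inn (Lie.chevG2.group F))]
    exact Nat.mul_dvd_mul (Subgroup.card_range_dvd _) dvd_rfl
  have h2 := Cfsg.Agent.S2121.result (F := F) 2 f hF (by omega)
  rw [if_neg (by norm_num)] at h2
  have h3 : Nat.card F = 2 ^ f := by rw [Nat.card_eq_fintype_card, hF]
  rw [h2, ← Nat.card_congr e.toEquiv, H638.G2Iso.card_G2, h3] at h1
  exact h1

theorem not_two_dvd {f k : ℕ} (hf : 1 ≤ f) (hk : 1 ≤ k) : ¬ 2 ∣ (2 ^ f) ^ k - 1 := by
  intro h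
  have h1 : 2 ∣ (2 ^ f) ^ k := dvd_pow (dvd_pow_self 2 (by omega)) (by omega)
  have h2 : 1 ≤ (2 ^ f) ^ k := Nat.one_le_pow _ _ (Nat.pow_pos (by norm_num))
  omega

theorem sub_ne_zero' {f k : ℕ} (hf : 1 ≤ f) (hk : 1 ≤ k) : (2 ^ f) ^ k - 1 ≠ 0 := fun h =>
  not_two_dvd hf hk (by rw [h]; exact dvd_zero 2)

theorem factorization_g2 {f : ℕ} (hf : 1 ≤ f) :
    ((2 ^ f) ^ 6 * ((2 ^ f) ^ 2 - 1) * ((2 ^ f) ^ 6 - 1) * f).factorization 2 = 6 * f + f.factorization 2 := by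
  have h0 : (2 ^ f) ^ 6 ≠ 0 := by positivity
  have n2 := sub_ne_zero' (f := f) (k := 2) hf (by norm_num)
  have n6 := sub_ne_zero' (f := f) (k := 6) hf (by norm_num)
  have e0 : ((2 ^ f) ^ 6).factorization 2 = 6 * f := by
    rw [← pow_mul, Nat.Prime.factorization_pow Nat.prime_two, Finsupp.single_eq_same, mul_comm]
  have e2 := Nat.factorization_eq_zero_of_not_dvd (not_two_dvd (f := f) (k := 2) hf (by norm_num))
  have e6 := Nat.factorization_eq_zero_of_not_dvd (not_two_dvd (f := f) (k := 6) hf (by norm_num))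
  rw [Nat.factorization_mul (Nat.mul_ne_zero (Nat.mul_ne_zero h0 n2) n6) (by omega),
    Nat.factorization_mul (Nat.mul_ne_zero h0 n2) n6, Nat.factorization_mul h0 n2]
  rw [Finsupp.add_apply, Finsupp.add_apply, Finsupp.add_apply, e0, e2, e6, add_zero, add_zero]

/-- the 2-part of a residual subgroup -/
theorem res_le {f : ℕ} (hf : 4 ≤ f) (hF : Fintype.card F = 2 ^ f) {H : Subgroup (GL (Fin 3 ⊕ Fin 3) F)}
    (hle : H ≤ spGL 3 F) (h : L06 H) : (Nat.card H).factorization 2 ≤ 6 * f + f.factorization 2 := by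
  have hch : CharP F 2 := charP_two hF
  have h2 : (2 : F) = 0 := by exact_mod_cast CharP.cast_eq_zero F 2
  obtain ⟨P, p, hc, hp, hcp, hcases⟩ := h
  have hp2 : p = 2 := CharP.eq F hcp hch
  subst hp2
  have h16 : 2 ^ 4 ≤ 2 ^ f := Nat.pow_le_pow_right (by norm_num) hf
  have hne : ∀ n : ℕ, n < 16 → Fintype.card F ≠ n := by
    intro n hn h3
    rw [hF] at h3
    omega
  have hd := card_dvd_aut h2 (m := 3) (by norm_num) hle hc
  rcases hcases with ⟨-, h3, -⟩ | ⟨-, ⟨h3, -⟩ | ⟨h3, -⟩⟩ | ⟨-, ⟨h3, -⟩ | ⟨h3, -⟩⟩ | ⟨-, h3⟩ | ⟨-, h3 | ⟨h3, -⟩⟩ |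
    ⟨-, ⟨h3, -⟩ | ⟨h3, -⟩⟩ | ⟨-, h3⟩ | ⟨⟨e⟩, -, -⟩
  · exact absurd h3 (hne _ (by norm_num))
  · exact absurd h3 (hne _ (by norm_num))
  · exact absurd h3 (hne _ (by norm_num))
  · exact absurd h3 (hne _ (by norm_num))
  · exact absurd h3 (hne _ (by norm_num))
  · exact absurd h3 (hne _ (by norm_num))
  · exact absurd h3 (hne _ (by norm_num))
  · exact absurd h3 (hne _ (by norm_num))
  · exact absurd h3 (hne _ (by norm_num))
  · exact absurd h3 (hne _ (by norm_num))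
  · omega
  · rw [Nat.card_congr (MulAut.congr e).toEquiv] at hd
    have h4 := hd.trans (aut_g2 (by omega) hF)
    rw [← factorization_g2 (by omega : 1 ≤ f)]
    refine (Nat.factorization_le_iff_dvd Nat.card_pos.ne' ?_).2 h4 2
    exact Nat.mul_ne_zero (Nat.mul_ne_zero (Nat.mul_ne_zero (by positivity) (sub_ne_zero' (by omega) (by norm_num)))
      (sub_ne_zero' (by omega) (by norm_num))) (by omega)

end Cfsg.Agent.H96.Rg
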