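import Cfsg.Agent.H96.Rg.SixField
import Cfsg.Agent.H96.Rg.SixRes
import Cfsg.Agent.H109.Cov.Types
import Cfsg.Agent.H884.ElKill
import Cfsg.Agent.H884.ElLin
import Cfsg.Agent.H159.SpEnd
import Cfsg.Agent.S5805

/-!
# S3691-M3: subgroups of `Sp_6(q)`, `q` even (helper96)

* `not_quad` : a group of isometries of a 6-dimensional quadratic space is not divisible by both `r₆` and `r₃`
* `ovr` : the maximal subgroups of `Sp_6(2 ^ f)`, `f ≥ 4`, of order divisible by `r₆`, `r₃` have 2-part at most `2 ^ (6 f) f₂`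
  (hypothesis: the conclusion of S5806)
* `six_even_of` : the statement for a quadratic space
-/

set_option autoImplicit false

namespace Cfsg.Agent.H96.Rg

open Cfsg Cfsg.Geo Module QuadraticMap Cfsg.Agent.LieClassical.OrthCore Cfsg.Agent.H955
open Cfsg.Agent.H109.Cov (L06)
open Cfsg.Agent.H951 (fx cm)
open Cfsg.Agent.LieClassical.OrthFinite (glEquiv glEquiv_apply)
open Cfsg.Agent.H876 (spToGL)
open scoped MatrixGroups Matrix

universe u v

section quad

variable {F : Type u} [Field F] [Fintype F]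

theorem not_quad {ι : Type} [Fintype ι] [DecidableEq ι] {Q : (ι → F) → F} (hQ : IsNondegenerateQuadraticForm Q)
    (hι : Fintype.card ι = 6) {H : Subgroup (GL ι F)} (hH : H ≤ Cfsg.isometryGroup F Q) {r₆ r₃ : ℕ}
    (h6 : H884.El.PP (Nat.card F) 6 r₆) (h3 : H884.El.PP (Nat.card F) 3 r₃) (h6H : r₆ ∣ Nat.card H)
    (h3H : r₃ ∣ Nat.card H) : False := by
  have hnd := H884.OmegaGL.nondeg_bundle Q hQ
  have hH' : H ≤ Cfsg.isometryGroup F (⇑(H884.OmegaGL.bundle Q hQ)) := hH
  have hdim : finrank F (ι → F) = 6 := by rw [finrank_fintype_fun_eq_card, hι]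
  obtain ⟨g, -, hg, -, hg1⟩ := H884.El.exists_elt hH' h6 (by norm_num) h6H
  obtain ⟨k, -, hk, -, hk1⟩ := H884.El.exists_elt hH' h3 (by norm_num) h3H
  obtain ⟨a1, a2⟩ := hg.even_case hnd (H884.El.lin_ne_one hg1) h6 (by decide) (by rw [hdim]; norm_num)
  obtain ⟨b1, b2, -⟩ := hk.odd_case hnd (H884.El.lin_ne_one hk1) h3 (by decide) (by rw [hdim]; norm_num)
  have e1 : cm (H884.El.lin g) = ⊤ := Submodule.eq_top_of_finrank_eq (by rw [a1, hdim])
  have e2 : cm (H884.El.lin k) = ⊤ := Submodule.eq_top_of_finrank_eq (by rw [b1, hdim])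
  rw [e1] at a2
  rw [e2] at b2
  exact a2 b2

end quad

section ovr

variable {F : Type u} [Field F] [Fintype F]

theorem to109 {p f k r : ℕ} (hp : 1 ≤ p) (hfk : 1 ≤ f * k) (h : H884.El.PP p (f * k) r) : H109.Cov.PP p f k r :=
  ⟨h.prime, fun m => by rw [h.dvd_iff hp, mul_comm], by rw [mul_comm]; exact h.dvd_sub_one hfk, h.not_dvd hfk⟩

/-- similarities of a quadratic form which are isometries of its polar form are isometries -/
theorem sim_le {Q : (Fin 3 ⊕ Fin 3 → F) → F} (hpol : ∀ u v : (Fin 3 ⊕ Fin 3 → F), polar Q u v = sympForm 3 F u v) :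
    quadSimilarityGroup Q ⊓ spGL 3 F ≤ Cfsg.isometryGroup F Q := by
  rintro g ⟨⟨c, hc⟩, hg⟩
  rw [H925.mem_iso_iff]
  have h1 : ∀ u v : (Fin 3 ⊕ Fin 3 → F), sympForm 3 F ((g : Matrix (Fin 3 ⊕ Fin 3) (Fin 3 ⊕ Fin 3) F) *ᵥ u)
      ((g : Matrix (Fin 3 ⊕ Fin 3) (Fin 3 ⊕ Fin 3) F) *ᵥ v) = sympForm 3 F u v := fun u v => hg u v
  have h2 : ∀ u v : (Fin 3 ⊕ Fin 3 → F), (c : F) * sympForm 3 F u v = sympForm 3 F u v := by
    intro u v
    have h3 : polar Q ((g : Matrix (Fin 3 ⊕ Fin 3) (Fin 3 ⊕ Fin 3) F) *ᵥ u)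
        ((g : Matrix (Fin 3 ⊕ Fin 3) (Fin 3 ⊕ Fin 3) F) *ᵥ v) = (c : F) * polar Q u v := by
      rw [polar, polar, ← Matrix.mulVec_add, hc, hc, hc]
      ring
    rw [hpol, hpol, h1] at h3
    exact h3.symm
  obtain ⟨u, v, huv⟩ : ∃ u v : (Fin 3 ⊕ Fin 3 → F), sympForm 3 F u v ≠ 0 := by
    by_contra hcon
    push Not at hcon
    have h3 := (ClassicalGeometry.SympBasic.sympBilin_nondegenerate (m := 3) (F := F)).1 (Pi.single (Sum.inl 0) 1)
      (fun v => hcon _ v)
    have h4 := congrFun h3 (Sum.inl 0)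
    rw [Pi.single_eq_same] at h4
    exact one_ne_zero h4
  have h3 : (c : F) = 1 := by
    have := h2 u v
    exact mul_right_cancel₀ huv (by rw [this, one_mul])
  intro v
  rw [hc, h3, one_mul]

/-- **the maximal subgroups** -/
theorem ovr (h06 : ∀ H : Subgroup (GL (Fin 3 ⊕ Fin 3) F), IsMaximalIn (spGL 3 F) H → InSymplecticResidualClass H → L06 H)
    {f r₆ r₃ : ℕ} (hf : 4 ≤ f) (hF : Fintype.card F = 2 ^ f) (h6 : H884.El.PP 2 (f * 6) r₆)
    (h3 : H884.El.PP 2 (f * 3) r₃) {M : Subgroup (GL (Fin 3 ⊕ Fin 3) F)} (hM : IsMaximalIn (spGL 3 F) M)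
    (h6M : r₆ ∣ Nat.card M) (h3M : r₃ ∣ Nat.card M) : (Nat.card M).factorization 2 ≤ 6 * f + f.factorization 2 := by
  have hF' : Nat.card F = 2 ^ f := by rw [Nat.card_eq_fintype_card, hF]
  have hf1 : 1 ≤ f := by omega
  have hr := to109 (by norm_num) (by omega) h6
  have hr6 := hr.lt hf1 (by norm_num)
  have hodd : ¬ Odd (Fintype.card F) := by
    rw [hF, Nat.not_odd_iff_even]
    exact Even.pow_of_ne_zero (by decide) (by omega)
  obtain ⟨x, hxM, hxr, hx1⟩ := H109.Cov.exists_elt hr.prime h6M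
  rcases S5805.result M hM with ⟨W, hW0, hts, e⟩ | ⟨W, hW0, -, hW, e⟩ | ⟨-, D, hD, e⟩ | ⟨h, -⟩ |
    ⟨K, hK, -, -, e⟩ | ⟨h, -⟩ | ⟨h, -⟩ | ⟨F₀, r', P, ζ, hr', hc, -, -, e⟩ |
    ⟨-, Q, hQ, hpol, e⟩ | h
  · exfalso
    rw [e] at hxM
    have h1 := H109.Cov.six_sub hr hf1 hF' hxr hx1 (H109.Cov.inv_of_mem hxM.1) hW0
    have h2 := H109.Cov.finrank_le_of_ts hts
    omega
  · exfalso
    rw [e] at hxM
    have h1 := H109.Cov.six_sub hr hf1 hF' hxr hx1 (H109.Cov.inv_of_mem hxM.1) hW0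
    omega
  · exfalso
    rw [e] at h6M
    exact H109.Cov.kill_decomp hr hf1 hF' hD.decomp (by omega) (by norm_num) (H109.Cov.dvd_left h6M)
  · exact absurd h hodd
  · have h1 := factorization_le (p := 2) (f := f) (s := 3) Nat.prime_two hf1 hF' Nat.prime_three (by norm_num) hK rfl
      (M := M) (by rw [e]; exact inf_le_left)
    omega
  · exact absurd h hodd
  · exact absurd h hodd
  · exfalso
    rw [e] at h6M
    refine H109.Cov.kill_subfield Nat.prime_two hr hf1 hF' hr'.two_le hc P (by norm_num) ?_ (H109.Cov.dvd_left h6M)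
    have : Fintype.card (Fin 3 ⊕ Fin 3) = 6 := rfl
    have := hr'.two_le
    omega
  · exfalso
    have h6' : H884.El.PP (Nat.card F) 6 r₆ := by rw [hF']; exact H884.El.PP.of_pow h6 hf1
    have h3' : H884.El.PP (Nat.card F) 3 r₃ := by rw [hF']; exact H884.El.PP.of_pow h3 hf1
    rw [e] at h6M h3M
    exact not_quad hQ rfl (sim_le hpol) h6' h3' h6M h3M
  · exact res_le hf hF hM.1.le (h06 M hM h)

end ovr

section bridge

variable {F : Type u} [Field F] {m : ℕ}

theorem isMaximalIn_map {H : Subgroup (Matrix.symplecticGroup (Fin m) F)} (hH : IsCoatom H) :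
    IsMaximalIn (spGL m F) (H.map (spToGL m F)) := by
  have hle : ∀ L : Subgroup (Matrix.symplecticGroup (Fin m) F), L.map (spToGL m F) ≤ spGL m F := by
    rintro L _ ⟨x, -, rfl⟩
    exact H931.spToGL_mem x
  have hinj : Function.Injective (spToGL m F) := by
    intro a b h
    apply Subtype.ext
    exact congrArg (fun g : GL (Fin m ⊕ Fin m) F => (g : Matrix (Fin m ⊕ Fin m) (Fin m ⊕ Fin m) F)) h
  constructor
  · refine lt_of_le_of_ne (hle H) ?_
    intro h
    apply hH.1
    rw [← H931.map_spToGL_top] at h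
    exact Subgroup.map_injective hinj h
  · intro M h1 h2
    have h3 : (M.comap (spToGL m F)).map (spToGL m F) = M := by
      apply le_antisymm (Subgroup.map_comap_le _ _)
      intro g hg
      obtain ⟨A, rfl⟩ := H931.exists_spToGL (h2 hg)
      exact ⟨A, hg, rfl⟩
    have h4 : H ≤ M.comap (spToGL m F) := Subgroup.map_le_iff_le_comap.1 h1
    rcases hH.le_iff.1 h4 with h5 | h5
    · right
      rw [← h3, h5, H931.map_spToGL_top]
    · left
      rw [← h3, h5]

end bridge

section abs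

variable {F : Type} [Field F] [Fintype F] {V : Type v} [AddCommGroup V] [Module F V] [FiniteDimensional F V]

/-- linear automorphisms as matrices -/
noncomputable def cj {ι : Type} [Fintype ι] [DecidableEq ι] (φ : V ≃ₗ[F] (ι → F)) : (V ≃ₗ[F] V) ≃* GL ι F :=
  { toFun := fun e => (glEquiv ι F).symm ((φ.symm.trans e).trans φ)
    invFun := fun g => (φ.trans (glEquiv ι F g)).trans φ.symm
    left_inv := fun e => by
      change (φ.trans (glEquiv ι F ((glEquiv ι F).symm ((φ.symm.trans e).trans φ)))).trans φ.symm = e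
      rw [MulEquiv.apply_symm_apply]
      apply LinearEquiv.ext
      intro v
      simp
    right_inv := fun g => by
      apply (glEquiv ι F).injective
      change glEquiv ι F ((glEquiv ι F).symm _) = _
      rw [MulEquiv.apply_symm_apply]
      apply LinearEquiv.ext
      intro v
      simp
    map_mul' := fun a b => by
      rw [← map_mul]
      congr 1
      apply LinearEquiv.ext
      intro v
      change φ (a (b (φ.symm v))) = φ (a (φ.symm (φ (b (φ.symm v)))))
      rw [φ.symm_apply_apply] }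

theorem cj_apply {ι : Type} [Fintype ι] [DecidableEq ι] (φ : V ≃ₗ[F] (ι → F)) (e : V ≃ₗ[F] V) (v : ι → F) :
    (cj φ e : Matrix ι ι F) *ᵥ v = φ (e (φ.symm v)) := by
  rw [← glEquiv_apply]
  change glEquiv ι F ((glEquiv ι F).symm ((φ.symm.trans e).trans φ)) v = _
  rw [MulEquiv.apply_symm_apply]
  rfl

/-- symplectic coordinates in characteristic two -/
theorem exists_coord (h2 : (2 : F) = 0) {Q : QuadraticForm F V} (hQ : Nondeg Q) {n : ℕ} (hV : finrank F V = 2 * n) :
    ∃ φ : V ≃ₗ[F] (Fin n ⊕ Fin n → F), ∀ u v, sympForm n F (φ u) (φ v) = polar Q u v := by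
  classical
  have hneg : ∀ x : F, -x = x := by
    intro x
    rw [neg_eq_iff_add_eq_zero, ← two_mul, h2, zero_mul]
  have hA : (polarBilin Q).IsAlt := by
    intro x
    change polar Q x x = 0
    rw [polar_self', h2, zero_mul]
  have hB : (polarBilin Q).Nondegenerate := by
    refine ⟨fun x hx => hQ x fun y => hx y, fun x hx => hQ x fun y => ?_⟩
    have := hx y
    change polar Q y x = 0 at this
    rw [polar_comm]
    exact this
  obtain ⟨b, hb⟩ := H159.exists_symp_basis (polarBilin Q) hA hB hV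
  refine ⟨b.equivFun, fun u v => ?_⟩
  have h1 := LinearMap.BilinForm.apply_eq_dotProduct_toMatrix_mulVec b (polarBilin Q) u v
  rw [hb] at h1
  change _ = polarBilin Q u v
  rw [h1, Matrix.neg_mulVec, dotProduct_neg, hneg]
  rfl

/-- **M3**, with the conclusion of S5806 as hypothesis -/
theorem six_even_of (h06 : ∀ H : Subgroup (GL (Fin 3 ⊕ Fin 3) F), IsMaximalIn (spGL 3 F) H →
      InSymplecticResidualClass H → L06 H)
    {Q : QuadraticForm F V} (hQ : Nondeg Q) (hV : finrank F V = 6) {f r₆ r₃ : ℕ} (hf : 4 ≤ f)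
    (hF : Fintype.card F = 2 ^ f) (h6 : H884.El.PP 2 (f * 6) r₆) (h3 : H884.El.PP 2 (f * 3) r₃)
    {H : Subgroup (V ≃ₗ[F] V)} (hH : ∀ h ∈ H, ∀ u v, polar Q (h u) (h v) = polar Q u v)
    (h6H : r₆ ∣ Nat.card H) (h3H : r₃ ∣ Nat.card H)
    (hpH : 6 * f + f.factorization 2 < (Nat.card H).factorization 2) {x : V ≃ₗ[F] V}
    (hx : ∀ u v, polar Q (x u) (x v) = polar Q u v) : x ∈ H := by
  classical
  have hch : CharP F 2 := charP_two hF
  have h2 : (2 : F) = 0 := by exact_mod_cast CharP.cast_eq_zero F 2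
  obtain ⟨φ, hφ⟩ := exists_coord h2 hQ (n := 3) hV
  have key : ∀ y : V ≃ₗ[F] V, (∀ u v, polar Q (y u) (y v) = polar Q u v) → cj φ y ∈ spGL 3 F := by
    intro y hy
    rw [H931.mem_spGL_iff]
    intro a b
    rw [cj_apply, cj_apply, hφ, hy, ← hφ, φ.apply_symm_apply, φ.apply_symm_apply]
  have hle : H.map (cj φ).toMonoidHom ≤ spGL 3 F := by
    rintro _ ⟨y, hy, rfl⟩
    exact key y (hH y hy)
  have hcard : Nat.card (H.map (cj φ).toMonoidHom) = Nat.card H := Subgroup.card_map_of_injective (cj φ).injective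
  set K : Subgroup (Matrix.symplecticGroup (Fin 3) F) := (H.map (cj φ).toMonoidHom).comap (spToGL 3 F) with hK
  have hKm : K.map (spToGL 3 F) = H.map (cj φ).toMonoidHom := by
    apply le_antisymm (Subgroup.map_comap_le _ _)
    intro g hg
    obtain ⟨A, rfl⟩ := H931.exists_spToGL (hle hg)
    exact ⟨A, hg, rfl⟩
  have hfin : Finite (Matrix.symplecticGroup (Fin 3) F) := inferInstance
  have hfinGL : Finite (GL (Fin 3 ⊕ Fin 3) F) := inferInstance
  rcases eq_top_or_exists_le_coatom K with htop | ⟨N, hN, hKN⟩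
  · have h4 : cj φ x ∈ H.map (cj φ).toMonoidHom := by
      rw [← hKm, htop, H931.map_spToGL_top]
      exact key x hx
    obtain ⟨y, hy, hxy⟩ := h4
    have : y = x := (cj φ).injective hxy
    rwa [← this]
  · exfalso
    have hmax := isMaximalIn_map hN
    have hHN : H.map (cj φ).toMonoidHom ≤ N.map (spToGL 3 F) := by
      rw [← hKm]
      exact Subgroup.map_mono hKN
    have hdvd : Nat.card H ∣ Nat.card (N.map (spToGL 3 F)) := by
      rw [← hcard]
      exact Subgroup.card_dvd_of_le hHN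
    have h4 := ovr h06 hf hF h6 h3 hmax (h6H.trans hdvd) (h3H.trans hdvd)
    have h5 : (Nat.card H).factorization 2 ≤ (Nat.card (N.map (spToGL 3 F))).factorization 2 := by
      have hne1 : Nat.card H ≠ 0 := by
        rw [← hcard]; exact Nat.card_pos.ne'
      exact (Nat.factorization_le_iff_dvd hne1 Nat.card_pos.ne').2 hdvd 2
    omega

end abs

end Cfsg.Agent.H96.Rg
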