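import Cfsg.Agent.H906.Cov.EKill
import Mathlib.LinearAlgebra.Matrix.GeneralLinearGroup.Card

/-!
# S3691-M3: the `p`-part of the normaliser of a field of matrices (helper96)

* `card_comm_dvd` : a group of matrices commuting with a field `K` of degree `s` has order dividing `|GL_n(q ^ s)|`
* `factorization_le` : `n = 2`: the `p`-part of a subgroup of the normaliser of `K` is at most `q ^ s` (`s ≠ p`)
-/

set_option autoImplicit false

namespace Cfsg.Agent.H96.Rg

open Cfsg Cfsg.Geo Module
open scoped MatrixGroups Matrix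

universe u

theorem card_dvd_of_end {K : Type u} [Field K] [Finite K] {V : Type*} [AddCommGroup V] [Module K V] {n : ℕ}
    (b : Basis (Fin n) K V) {G : Type*} [Group G] (f : G →* Module.End K V) (hf : Function.Injective f) :
    Nat.card G ∣ ∏ i : Fin n, (Nat.card K ^ n - Nat.card K ^ (i : ℕ)) := by
  classical
  let _ : Fintype K := Fintype.ofFinite K
  let m : G →* Matrix (Fin n) (Fin n) K := (LinearMap.toMatrixAlgEquiv b).toMulEquiv.toMonoidHom.comp f
  have hm : Function.Injective m := fun g h hgh => hf ((LinearMap.toMatrixAlgEquiv b).injective hgh)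
  have hu : Function.Injective m.toHomUnits := by
    intro g h hgh
    apply hm
    exact congrArg (fun u : (Matrix (Fin n) (Fin n) K)ˣ => (u : Matrix (Fin n) (Fin n) K)) hgh
  have h2 := Subgroup.card_dvd_of_injective m.toHomUnits hu
  have h3 : Nat.card ((Matrix (Fin n) (Fin n) K)ˣ) = ∏ i : Fin n, (Fintype.card K ^ n - Fintype.card K ^ (i : ℕ)) :=
    Matrix.card_GL_field n
  rw [h3, ← Nat.card_eq_fintype_card] at h2
  exact h2

variable {ι : Type} [Fintype ι] [DecidableEq ι] {F : Type u} [Field F] [Finite F]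

theorem card_comm_dvd [Nonempty ι] {s n : ℕ} {K : Subalgebra F (Matrix ι ι F)} (hK : IsFieldSubalgebra s K)
    (hn : s * n = Fintype.card ι) (hs : 1 ≤ s)
    {P : Subgroup (GL ι F)} (hP : ∀ g ∈ P, ∀ x ∈ K, (g : Matrix ι ι F) * x = x * (g : Matrix ι ι F)) :
    Nat.card P ∣ ∏ i : Fin n, ((Nat.card F ^ s) ^ n - (Nat.card F ^ s) ^ (i : ℕ)) := by
  classical
  have hcK : Nat.card K = Nat.card F ^ s := by
    have h2 := Module.natCard_eq_pow_finrank (K := F) (V := K)
    rwa [hK.finrank_eq] at h2
  let _ : Field K := (H906.Cov.isField_of hK).toField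
  have hfinK : Finite K := Module.finite_of_finite F
  have h1 := Module.finrank_mul_finrank F K (ι → F)
  rw [hK.finrank_eq, Module.finrank_fintype_fun_eq_card, ← hn] at h1
  have hrank : finrank K (ι → F) = n := Nat.eq_of_mul_eq_mul_left (by omega) h1
  have hVfin : Module.Finite K (ι → F) := Module.Finite.of_restrictScalars_finite F K (ι → F)
  let b : Basis (Fin n) K (ι → F) := Module.finBasisOfFinrankEq K (ι → F) hrank
  let f : P →* Module.End K (ι → F) :=
    { toFun := fun g =>
        { toFun := fun v => ((g : GL ι F) : Matrix ι ι F) *ᵥ v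
          map_add' := fun u v => Matrix.mulVec_add _ _ _
          map_smul' := fun x v => by
            change ((g : GL ι F) : Matrix ι ι F) *ᵥ ((x : Matrix ι ι F) *ᵥ v) =
              (x : Matrix ι ι F) *ᵥ (((g : GL ι F) : Matrix ι ι F) *ᵥ v)
            rw [Matrix.mulVec_mulVec, Matrix.mulVec_mulVec, hP g g.2 x x.2] }
      map_one' := by
        apply LinearMap.ext
        intro v
        exact Matrix.one_mulVec v
      map_mul' := fun g h => by
        apply LinearMap.ext
        intro v
        change (((g : GL ι F) * (h : GL ι F) : GL ι F) : Matrix ι ι F) *ᵥ v =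
          ((g : GL ι F) : Matrix ι ι F) *ᵥ (((h : GL ι F) : Matrix ι ι F) *ᵥ v)
        rw [Units.val_mul, Matrix.mulVec_mulVec] }
  have hf : Function.Injective f := by
    intro g h h2
    apply Subtype.ext
    apply Units.ext
    apply Matrix.toLin'.injective
    apply LinearMap.ext
    intro v
    rw [Matrix.toLin'_apply, Matrix.toLin'_apply]
    exact LinearMap.congr_fun h2 v
  have h2 := card_dvd_of_end b f hf
  rwa [hcK] at h2

/-- the `p`-part of a group normalising a field of degree `s ≠ p`, dimension `2 s` -/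
theorem factorization_le [Nonempty ι] {p f s : ℕ} (hp : p.Prime) (hf : 1 ≤ f) (hF : Nat.card F = p ^ f) (hs : s.Prime)
    (hsp : s ≠ p) {K : Subalgebra F (Matrix ι ι F)} (hK : IsFieldSubalgebra s K) (hn : s * 2 = Fintype.card ι)
    {M : Subgroup (GL ι F)} (hM : M ≤ subalgebraNormalizer K) : (Nat.card M).factorization p ≤ f * s := by
  classical
  have hfin : Finite (GL ι F) := inferInstance
  have := Fact.mk hp
  obtain ⟨S⟩ : Nonempty (Sylow p M) := inferInstance
  have hcS : Nat.card S = p ^ (Nat.card M).factorization p := S.card_eq_multiplicity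
  set P : Subgroup (GL ι F) := (S : Subgroup M).map M.subtype with hPdef
  have hcP : Nat.card P = p ^ (Nat.card M).factorization p := by
    rw [hPdef, Subgroup.card_map_of_injective M.subtype_injective]
    exact hcS
  have hPM : P ≤ M := by
    rintro _ ⟨x, -, rfl⟩
    exact x.2
  have hcomm : ∀ g ∈ P, ∀ x ∈ K, (g : Matrix ι ι F) * x = x * (g : Matrix ι ι F) := by
    intro g hg x hx
    apply H906.Cov.commute_of_coprime hK (hM (hPM hg)) _ x hx
    have h1 : orderOf g ∣ p ^ (Nat.card M).factorization p := by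
      rw [← hcP, ← Subgroup.orderOf_mk _ hg]
      exact orderOf_dvd_natCard _
    exact Nat.Coprime.coprime_dvd_left h1 (Nat.Coprime.pow_left _ ((Nat.coprime_primes hp hs).2 (Ne.symm hsp)))
  have h1 := card_comm_dvd hK hn hs.one_le hcomm
  set Q := p ^ (f * s) with hQ
  have hQ' : (p ^ f) ^ s = Q := by rw [← pow_mul]
  rw [hcP, Fin.prod_univ_two, hF, hQ'] at h1
  have hQ1 : 1 ≤ Q := Nat.one_le_pow _ _ hp.pos
  have hpQ : p ∣ Q := dvd_pow_self p (Nat.mul_ne_zero (by omega) hs.ne_zero)
  have h2 : (Q ^ 2 - Q ^ ((0 : Fin 2) : ℕ)) * (Q ^ 2 - Q ^ ((1 : Fin 2) : ℕ)) = Q * ((Q ^ 2 - 1) * (Q - 1)) := by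
    have e1 : ((0 : Fin 2) : ℕ) = 0 := rfl
    have e2 : ((1 : Fin 2) : ℕ) = 1 := rfl
    rw [e1, e2, pow_zero, pow_one]
    have e3 : Q ^ 2 - Q = Q * (Q - 1) := by rw [Nat.mul_sub, mul_one, sq]
    rw [e3]; ring
  rw [h2] at h1
  have hnd : ∀ k : ℕ, 1 ≤ k → ¬ p ∣ Q ^ k - 1 := by
    intro k hk h
    have h3 : p ∣ Q ^ k := dvd_pow hpQ (by omega)
    have h4 : Q ^ k - (Q ^ k - 1) = 1 := by
      have : 1 ≤ Q ^ k := Nat.one_le_pow _ _ hQ1
      omega
    have h5 : p ∣ 1 := by
      rw [← h4]
      exact Nat.dvd_sub h3 h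
    exact hp.one_lt.ne' (Nat.dvd_one.1 h5)
  have hco : Nat.Coprime (p ^ (Nat.card M).factorization p) ((Q ^ 2 - 1) * (Q - 1)) := by
    apply Nat.Coprime.pow_left
    rw [hp.coprime_iff_not_dvd, hp.dvd_mul]
    rintro (h | h)
    · exact hnd 2 (by norm_num) h
    · exact hnd 1 le_rfl (by rwa [pow_one])
  have h3 := hco.dvd_of_dvd_mul_right h1
  exact (Nat.pow_dvd_pow_iff_le_right hp.one_lt).1 h3

end Cfsg.Agent.H96.Rg
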